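import Mathlib
import Cfsg.Agent.Lib.TcChain
import Cfsg.Agent.Lib.TcLevels
import Cfsg.Agent.TcData.HNH.ChW.Q0
import Cfsg.Agent.TcData.HNH.W.Rep

set_option autoImplicit false
set_option Elab.async false
set_option maxRecDepth 100000
set_option linter.all false

namespace Cfsg.Agent.TcData.HNH.ChW

open Cfsg.Spor Cfsg.Agent.Lib.TcFacts Cfsg.Agent.Lib.TcBits Cfsg.Agent.Lib.TcPres Cfsg.Agent.Lib.TcChain Cfsg.Agent.Lib.TcRel Cfsg.Agent.Lib.TcLevels Cfsg.Spor.HN Cfsg.Agent.TcData.HNH Cfsg.Agent.TcData.HNH.W

/-- All programs. -/
noncomputable def pLL : List (List (ℕ × ℕ)) := [pr .x, pr .y, pr .z, q3, q4, q5, q6, q7, q8, q9, q10, q11, q12]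

/-- The program of a number. -/
noncomputable def pL (i : ℕ) : List (ℕ × ℕ) := pLL.getD i []

theorem hvL : ∀ p ∈ pLL, validProg (2 ^ 7) p = true := by decide +kernel

theorem hvp : ∀ i, validProg (2 ^ 7) (pL i) = true := valid_getD hvL

/-- A level of the chain. -/
def S0 : List ℕ := [0, 1, 2]

/-- A level of the chain. -/
def S1 : List ℕ := [3, 4]

/-- A level of the chain. -/
def S2 : List ℕ := [5, 6]

/-- A level of the chain. -/
def S3 : List ℕ := [7, 8]

/-- A level of the chain. -/
def S4 : List ℕ := [9, 10, 11]

/-- A level of the chain. -/
def S5 : List ℕ := [12]

/-- A level of the chain. -/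
def S6 : List ℕ := []

/-- The words of the generators. -/
def WL : List (List (ℕ × Bool)) := [
  [],
  [],
  [],
  [(1, true), (2, true), (2, true), (1, false), (2, false), (1, true), (2, false), (0, false), (2, false), (0, false), (0, true), (1, true), (2, true), (0, true), (0, false), (0, true), (2, false), (0, true), (0, false), (0, false), (1, true), (1, true), (2, true), (1, false), (0, false), (0, false), (0, false)],
  [(2, false), (1, true), (1, true), (1, false), (0, true), (2, true), (2, true), (1, false), (2, false), (2, false), (1, false), (2, false)],
  [(3, true), (4, true), (3, true), (3, true), (4, true), (4, false), (3, true), (4, false), (4, false), (3, true), (3, false), (3, false), (4, true), (3, true), (4, true), (4, false), (4, true), (3, false), (4, false), (3, false), (4, false), (4, true), (4, true), (3, true), (3, false), (4, true)],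
  [(3, false), (3, false), (4, true), (4, true), (4, false), (3, false), (4, true), (3, false), (3, true), (3, false)],
  [(5, false), (6, false), (5, true), (6, true), (6, true), (6, false), (5, true), (5, false), (6, false), (5, false), (6, false), (6, true), (5, false), (6, true), (6, false), (5, false), (6, true), (5, true), (6, false), (5, true), (6, false), (5, false), (6, true), (6, true), (5, true), (6, true), (5, false)],
  [(5, false), (5, false), (6, true), (5, false), (6, true), (5, false), (5, false), (6, false), (6, false), (5, false), (5, false), (6, false), (5, true), (5, false), (6, true), (5, true), (6, true), (5, true), (5, false), (5, false), (6, false), (6, false), (6, false), (6, false), (5, false), (5, true), (5, false), (5, true), (5, true), (6, false), (6, false), (6, false), (6, false), (6, true)],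
  [(8, false), (7, true), (8, false), (8, false), (7, false), (7, false), (7, false), (8, false), (8, false), (7, true), (7, true), (7, true), (7, false), (7, true), (7, true), (7, false), (7, true), (7, true), (7, true), (8, true), (7, false), (7, true), (7, true), (8, true), (8, false), (8, true), (7, false), (7, false), (7, false), (8, false)],
  [(8, true), (7, false), (8, true), (7, true), (7, true), (7, false), (8, true), (8, false), (7, false), (8, false), (7, false), (8, false), (7, true), (7, true)],
  [(8, false), (8, false), (8, true), (8, true), (8, false), (8, true), (7, true), (8, false), (7, true), (7, true), (7, false), (8, true)],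
  [(9, true), (11, false), (11, true), (10, true), (11, false), (10, false), (11, false), (10, false), (11, false), (9, false), (11, false)]]

/-- The word of a generator. -/
def W (t : ℕ) : List (ℕ × Bool) := WL.getD t []

theorem hS0 : ∀ i ∈ S0, pL i = pr (gensL.getD i .x) := by decide +kernel

/-- The generators of the group of the chain. -/
def SLt : List Gen := [.x, .y, .z]

theorem hK : Gp pL S0 ≤ (subOf RR SLt).map Phi :=
  Gp_le_map hR pL S0 (fun i => gensL.getD i .x) SLt hS0 (by decide)

end Cfsg.Agent.TcData.HNH.ChW
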