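import Mathlib
import Cfsg.Agent.TcData.HNH.ChW.Defs

set_option autoImplicit false
set_option Elab.async false
set_option maxRecDepth 100000
set_option linter.all false

namespace Cfsg.Agent.TcData.HNH.ChW

open Cfsg.Spor Cfsg.Agent.Lib.TcFacts Cfsg.Agent.Lib.TcBits Cfsg.Agent.Lib.TcPres Cfsg.Agent.Lib.TcChain Cfsg.Spor.HN Cfsg.Agent.TcData.HNH Cfsg.Agent.TcData.HNH.W

theorem hW4 : ∀ t ∈ S5, ∀ a ∈ W t, a.1 ∈ S4 := by decide +kernel

theorem heq4 : ∀ t ∈ S5, ∀ j, j < 7 →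
    wordApply (sgnProg pL) ((t, false) :: W t) (slice 7 j) = slice 7 j := by decide +kernel

theorem hfx4 : ∀ t ∈ S5, progApply (pL t) (2 ^ 25) = 2 ^ 25 := by decide +kernel

/-- An orbit. -/
def O4 : ℕ := nat_lit 0xc8085d2dffb020f080a000000

theorem hgrow4 : growLN pL S4 3 (2 ^ 25) = O4 := by decide +kernel

theorem hc4 : sumRange O4.testBit 7 0 = 32 := by decide +kernel

theorem lv4 (h : Nat.card (Gp pL S4) ≠ 0) :
    Nat.card (Gp pL S5) ≠ 0 ∧ 32 * Nat.card (Gp pL S5) ≤ Nat.card (Gp pL S4) :=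
  level_step hvp S4 S5 W hW4 heq4 hfx4 hgrow4 hc4 h

end Cfsg.Agent.TcData.HNH.ChW
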