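import Mathlib
import Cfsg.Agent.TcData.HNH.ChW.L0
import Cfsg.Agent.TcData.HNH.ChW.L1
import Cfsg.Agent.TcData.HNH.ChW.L2
import Cfsg.Agent.TcData.HNH.ChW.L3
import Cfsg.Agent.TcData.HNH.ChW.L4
import Cfsg.Agent.TcData.HNH.ChW.L5

set_option autoImplicit false
set_option Elab.async false
set_option maxRecDepth 100000
set_option linter.all false

namespace Cfsg.Agent.TcData.HNH.ChW

open Cfsg.Spor Cfsg.Agent.Lib.TcFacts Cfsg.Agent.Lib.TcBits Cfsg.Agent.Lib.TcPres Cfsg.Agent.Lib.TcChain Cfsg.Spor.HN Cfsg.Agent.TcData.HNH Cfsg.Agent.TcData.HNH.W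

theorem low (h0 : Nat.card (Gp pL S0) ≠ 0) : 88704000 ≤ Nat.card (Gp pL S0) := by
  have L0 := lv0 h0
  have L1 := lv1 L0.1
  have L2 := lv2 L1.1
  have L3 := lv3 L2.1
  have L4 := lv4 L3.1
  have L5 := lv5 L4.1
  have h : (2 * (100 * (77 * (60 * (32 * (3 * 1)))))) ≤ Nat.card (Gp pL S0) := chain_cons L0.2 (chain_cons L1.2 (chain_cons L2.2 (chain_cons L3.2 (chain_cons L4.2 (chain_cons L5.2 (Nat.pos_of_ne_zero L5.1))))))
  norm_num at h
  exact h

end Cfsg.Agent.TcData.HNH.ChW
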