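import Mathlib
import Cfsg.Agent.TcData.HNH.ChW.Low
import Cfsg.Agent.Lib.TcCover

set_option autoImplicit false
set_option Elab.async false
set_option maxRecDepth 100000
set_option linter.all false

namespace Cfsg.Agent.TcData.HNH.ChW

open Cfsg.Spor Cfsg.Agent.Lib.TcFacts Cfsg.Agent.Lib.TcBits Cfsg.Agent.Lib.TcPres Cfsg.Agent.Lib.TcChain Cfsg.Agent.Lib.TcCover Cfsg.Spor.HN Cfsg.Agent.TcData.HNH Cfsg.Agent.TcData.HNH.W

/-- The code of a generator. -/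
def cS5 : ℕ := nat_lit 0xb8acd64d31ac24b0bcc3520a771280

/-- The code of a generator. -/
def cS6 : ℕ := nat_lit 0xbb6042b8d260aa90aa931ae277d900

/-- The codes. -/
def cS (t : ℕ) : ℕ := if t = 5 then cS5 else cS6

/-- The masks of the neighbours in the second orbit. -/
def NBL : List ℕ := [nat_lit 0x0, nat_lit 0x22a24224302410911b0000000, nat_lit 0x12c110440a0b218206a000000, nat_lit 0x300818a2a050350a85000000, nat_lit 0x494152000721708888800000, nat_lit 0x837f4998402a0800000000000, nat_lit 0x64181017fa44422000000, nat_lit 0x8d0012132828c22b020000000, nat_lit 0x10482c464ada2111000000, nat_lit 0x1424000de1089104216800000, nat_lit 0x450a022446064406c44000000, nat_lit 0xd0202ac01c4280c8084800000, nat_lit 0x2290281895c9904c000000, nat_lit 0x64a9a11088540021242000000, nat_lit 0x820c806110c00a0341f000000, nat_lit 0x2848080d9c306010809800000, nat_lit 0x58c68490b081000e900000000, nat_lit 0x32101a1340c03040f40000000,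 nat_lit 0xe0405520638040e0003800000, nat_lit 0xbc13a40a070000004b8000000, nat_lit 0x4905584401118401781000000, nat_lit 0x17080610510097c160000000, nat_lit 0x89862c002882634210800000]

/-- The mask of a point. -/
def NB (j : ℕ) : ℕ := NBL.getD j 0

theorem hcM24 : ∀ t ∈ S2, Cfsg.Agent.Lib.Golay.isM24 (cS t) = true := by decide +kernel

theorem hcZ : ∀ t ∈ S2, Cfsg.Agent.Lib.Golay.ap (cS t) 0 = 0 ∧ Cfsg.Agent.Lib.Golay.ap (cS t) 23 = 23 := by decide +kernel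

/-- The points of the small orbit. -/
def DL : List ℕ := List.range' 1 22

theorem mem_DL {j : ℕ} (hj : D22 j) : j ∈ DL := by
  rw [DL, List.mem_range']
  exact ⟨j - 1, by have := hj.1; have := hj.2; omega, by have := hj.1; omega⟩

theorem hcp0 : ∀ t ∈ S2, ∀ j ∈ DL, (progApply (pL t) (2 ^ Cfsg.Agent.Lib.Golay.ap (cS t) j)).testBit j = true := by
  decide +kernel

theorem hcp : ∀ t ∈ S2, ∀ j, D22 j → progPerm (pL t) j = Cfsg.Agent.Lib.Golay.ap (cS t) j := fun t ht j hj =>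
  perm_of_testBit (hvp t) (hcp0 t ht j (mem_DL hj))

theorem hnb0 : ∀ t ∈ S2, ∀ j ∈ DL, progApply (pL t) (NB (Cfsg.Agent.Lib.Golay.ap (cS t) j)) = NB j := by
  decide +kernel

theorem hnb : ∀ t ∈ S2, ∀ j, D22 j → progApply (pL t) (NB (Cfsg.Agent.Lib.Golay.ap (cS t) j)) = NB j := fun t ht j hj =>
  hnb0 t ht j (mem_DL hj)

/-- The points of the second orbit. -/
def G77L : List ℕ := List.range' 23 77

theorem hsep0 : ∀ i ∈ G77L, ∀ i' ∈ G77L, (DL.all fun j => (NB j).testBit i == (NB j).testBit i') = true → i = i' := by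
  decide +kernel

theorem hsep : ∀ i i', G77 i → G77 i' → (∀ j, D22 j → (NB j).testBit i = (NB j).testBit i') → i = i' := by
  intro i i' hi hi' h
  have m1 : ∀ {a : ℕ}, G77 a → a ∈ G77L := by
    intro a ha
    rw [G77L, List.mem_range']
    exact ⟨a - 23, by have := ha.1; have := ha.2; omega, by have := ha.1; omega⟩
  refine hsep0 i (m1 hi) i' (m1 hi') ?_
  rw [List.all_eq_true]
  intro j hj
  rw [DL, List.mem_range'] at hj
  obtain ⟨k, hk, rfl⟩ := hj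
  rw [beq_iff_eq]
  exact h _ ⟨by omega, by omega⟩

theorem hMD : ∀ t ∈ S2, progApply (pL t) (2 ^ 23 - 2 ^ 1) = 2 ^ 23 - 2 ^ 1 := by decide +kernel

theorem hMG : ∀ t ∈ S2, progApply (pL t) (2 ^ 100 - 2 ^ 23) = 2 ^ 100 - 2 ^ 23 := by decide +kernel

theorem hgD : growLN pL S2 5 (2 ^ 1) = 2 ^ 23 - 2 ^ 1 := by decide +kernel

theorem hgG : growLN pL S2 8 (2 ^ 23) = 2 ^ 100 - 2 ^ 23 := by decide +kernel

theorem hgT : growLN pL S1 8 (2 ^ 0) = 2 ^ 100 - 1 := by decide +kernel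

theorem hab1 : ∀ t ∈ S1, ∀ i ∈ List.range' 100 28, progApply (pL t) (2 ^ i) = 2 ^ i := by decide +kernel

theorem hG0fix : Gp pL S1 ≤ fixAbove 100 := Gp_le_fixAbove hvp S1 hab1

theorem hG1le : Gp pL S1 ≤ Gp pL S0 := Gp_le_of_words hvp S0 S1 W hW0 heq0

theorem hG2le : Gp pL S2 ≤ Gp pL S1 := Gp_le_of_words hvp S1 S2 W hW1 heq1

theorem hG2fix : ∀ g ∈ Gp pL S2, g 0 = 0 := Gp_fix hvp S2 hfx1

theorem hG2D : Gp pL S2 ≤ invS D22 := Gp_le_invS hvp S2 D22_iff hMD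

theorem hG2G : Gp pL S2 ≤ invS G77 := Gp_le_invS hvp S2 G77_iff hMG

theorem hG2NB : Gp pL S2 ≤ invNB NB := Gp_le_invNB hvp S2 NB hG2D cS hcp hnb

theorem hfaith : ∀ g ∈ Gp pL S2, (∀ i, 1 ≤ i → i ≤ 22 → g i = i) → g = 1 :=
  faith_of_nb NB hG2NB hG2fix (hG2le.trans hG0fix) hG2G hsep

theorem htrans : ∀ i, i < 100 → ∃ g ∈ Gp pL S1, g 0 = i := by
  intro i hi
  have hS := sound_growLN hvp S1 8 (2 ^ 0) (sound_single _ 0)
  rw [hgT] at hS
  exact hS i (by rw [Nat.testBit_two_pow_sub_one]; simpa using hi)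

theorem hs1 : ∀ i, 1 ≤ i → i ≤ 22 → ∃ g ∈ Gp pL S2, g 1 = i := by
  intro i h1 h2
  have hS := sound_growLN hvp S2 5 (2 ^ 1) (sound_single _ 1)
  rw [hgD] at hS
  exact hS i ((D22_iff i).1 ⟨h1, h2⟩)

theorem hs2 : ∀ i, 23 ≤ i → i < 100 → ∃ g ∈ Gp pL S2, g 23 = i := by
  intro i h1 h2
  have hS := sound_growLN hvp S2 8 (2 ^ 23) (sound_single _ 23)
  rw [hgG] at hS
  exact hS i ((G77_iff i).1 ⟨h1, h2⟩)

theorem cards (h0 : Nat.card (Gp pL S0) ≠ 0) :
    44352000 ≤ Nat.card (Gp pL S1) ∧ 443520 ≤ Nat.card (Gp pL S2) := by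
  have L0 := lv0 h0
  have L1 := lv1 L0.1
  have L2 := lv2 L1.1
  have L3 := lv3 L2.1
  have L4 := lv4 L3.1
  have L5 := lv5 L4.1
  have h2 : (77 * (60 * (32 * (3 * 1)))) ≤ Nat.card (Gp pL S2) := chain_cons L2.2 (chain_cons L3.2 (chain_cons L4.2 (chain_cons L5.2 (Nat.pos_of_ne_zero L5.1))))
  have h1 : (100 * (77 * (60 * (32 * (3 * 1))))) ≤ Nat.card (Gp pL S1) := chain_cons L1.2 h2
  norm_num at h1 h2
  exact ⟨h1, h2⟩

theorem iso22 (h0 : Nat.card (Gp pL S0) ≠ 0) : Nonempty (↥(Gp pL S2) ≃* Spor.M22) := by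
  have hmem : ∀ y ∈ (fun i => progPerm (pL i)) '' {i | i ∈ S2}, y ∈ invS D22 := by
    rintro _ ⟨t, ht, rfl⟩
    exact hG2D (mem_Gp_of_mem ht)
  refine iso_M22 (Y := (fun i => progPerm (pL i)) '' {i | i ∈ S2}) rfl hmem ?_ hfaith (cards h0).2
  rintro _ hy
  obtain ⟨t, ht, rfl⟩ := hy
  refine Fh_mem_of_code (hG2D (mem_Gp_of_mem ht)) (hcM24 t ht) ?_ (hcZ t ht).1 (hcZ t ht).2
  intro i hi
  unfold hh
  split_ifs with h
  · exact (hcp t ht i h).symm
  · have h4 : i = 0 ∨ i = 23 := by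
      simp only [not_and_or, not_le] at h
      omega
    rcases h4 with rfl | rfl
    · exact (hcZ t ht).1
    · exact (hcZ t ht).2

theorem hHS (h0 : Nat.card (Gp pL S0) ≠ 0) (hc : Nat.card (Gp pL S1) = 44352000) : Spor.IsoHS (Gp pL S1) := by
  obtain ⟨e⟩ := iso22 h0
  exact isoHS_of_data hG0fix htrans hc hG2le hG2fix (cards h0).2
    (fun g hg i h1 h2 => (hG2D hg i).2 ⟨h1, h2⟩) (fun g hg i h1 h2 => (hG2G hg i).2 ⟨h1, h2⟩) hs1 hs2 e

theorem hZ : ∀ h ∈ Gp pL S1, (∀ k ∈ Gp pL S1, h * k = k * h) → h = 1 :=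
  fun h hh hc => center_trivial hG0fix htrans hG2le hG2fix hs1 hs2 h hh hc

end Cfsg.Agent.TcData.HNH.ChW
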